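import Cfsg.Agent.Chars.Induced.Clifford
import Cfsg.Agent.Chars.Basic.Columns
import Mathlib.RingTheory.Polynomial.Cyclotomic.Eval
import Mathlib.RingTheory.Polynomial.Cyclotomic.Roots
import Mathlib.RingTheory.RootsOfUnity.Complex
import Mathlib.GroupTheory.PGroup

/-!
# Irreducible characters do not vanish on an abelian normal subgroup of `p'`-index at `p`-elements

* `sum_ne_zero_of_pow_eq_one`: a sum of `t` roots of unity of `p`-power order, `p ∤ t`, is not `0`;
* `apply_ne_zero_of_abelian_normal`.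
-/

set_option autoImplicit false

namespace CfsgLib.Chars.GaloisSum

open Cfsg Polynomial CfsgLib.Chars.Induced

/-- A sum of roots of unity of `p`-power order, their number prime to `p`, is nonzero. -/
theorem sum_ne_zero_of_pow_eq_one {ι : Type*} {p k : ℕ} (hp : p.Prime) (s : Finset ι)
    (z : ι → ℂ) (hz : ∀ i ∈ s, z i ^ p ^ k = 1) (hs : ¬ p ∣ s.card) : ∑ i ∈ s, z i ≠ 0 := by
  classical
  intro h0
  have : Fact p.Prime := ⟨hp⟩
  rcases Nat.eq_zero_or_pos k with rfl | hk
  · rw [Finset.sum_congr rfl (g := fun _ => (1 : ℂ)) fun i hi => by simpa using hz i hi] at h0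
    simp only [Finset.sum_const, nsmul_eq_mul, mul_one, Nat.cast_eq_zero] at h0
    exact hs (h0 ▸ dvd_zero p)
  have hN : 0 < p ^ k := pow_pos hp.pos k
  have : NeZero (p ^ k) := ⟨hN.ne'⟩
  have hζ := Complex.isPrimitiveRoot_exp _ hN.ne'
  set ζ := Complex.exp (2 * Real.pi * Complex.I / ((p ^ k : ℕ) : ℂ))
  have hex : ∀ i, ∃ a : ℕ, i ∈ s → ζ ^ a = z i := by
    intro i
    by_cases hi : i ∈ s
    · obtain ⟨a, -, ha⟩ := hζ.eq_pow_of_pow_eq_one (hz i hi)
      exact ⟨a, fun _ => ha⟩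
    · exact ⟨0, fun h => absurd h hi⟩
  choose a ha using hex
  have hP : aeval ζ (∑ i ∈ s, X ^ a i : ℤ[X]) = 0 := by
    rw [map_sum, ← h0]
    exact Finset.sum_congr rfl fun i hi => by rw [map_pow, aeval_X, ha i hi]
  have hdvd := minpoly.isIntegrallyClosed_dvd (hζ.isIntegral hN) hP
  rw [← cyclotomic_eq_minpoly hζ hN] at hdvd
  have h1 := eval_dvd (x := (1 : ℤ)) hdvd
  obtain ⟨k', rfl⟩ : ∃ k', k = k' + 1 := ⟨k - 1, by omega⟩
  rw [eval_one_cyclotomic_prime_pow, eval_finsetSum] at h1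
  simp only [eval_pow, eval_X, one_pow, Finset.sum_const, nsmul_eq_mul, mul_one] at h1
  exact hs (by exact_mod_cast h1)

variable {G : Type*} [Group G] [Finite G]

/-- An irreducible character does not vanish at the `p`-elements of an abelian normal subgroup of
index prime to `p`. -/
theorem apply_ne_zero_of_abelian_normal (N : Subgroup G) [N.Normal]
    (hab : ∀ a ∈ N, ∀ b ∈ N, a * b = b * a) {p : ℕ} (hp : p.Prime) (hidx : ¬ p ∣ N.index)
    (χ : IrrCharacter G) {v : G} (hv : v ∈ N) {k : ℕ} (hvk : v ^ p ^ k = 1) :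
    (χ : G → ℂ) v ≠ 0 := by
  classical
  have : Fintype G := Fintype.ofFinite G
  have : Fintype N := Fintype.ofFinite N
  have : IsMulCommutative N := ⟨⟨fun a b => Subtype.ext (hab _ a.2 _ b.2)⟩⟩
  obtain ⟨θ, hθ⟩ : ∃ θ : IrrCharacter N, mult (fun n : N => (χ : G → ℂ) n) θ ≠ 0 := by
    obtain ⟨s, hmem, hs⟩ := exists_eq_sum_mult (isCharacter_restrict (isCharacter_coe χ) N)
    rcases s.eq_empty_or_nonempty with rfl | ⟨θ, hθ⟩
    · exfalso
      rw [Finset.sum_empty] at hs
      exact map_one_ne_zero χ (congrFun hs 1)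
    · exact ⟨θ, (hmem θ).1 hθ⟩
  have hcl := congrFun (clifford χ θ hθ) ⟨v, hv⟩
  simp only [Pi.smul_apply, Finset.sum_apply, smul_eq_mul] at hcl
  rw [hcl]
  refine mul_ne_zero (Nat.cast_ne_zero.2 hθ) (sum_ne_zero_of_pow_eq_one (k := k) hp _ _ ?_ ?_)
  · intro η _
    obtain ⟨l, hl⟩ := exists_monoidHom_of_map_one_eq_one (isCharacter_coe η)
      (map_one_eq_one_of_isMulCommutative η)
    rw [hl, ← Units.val_pow_eq_pow_val, ← map_pow,
      show (⟨v, hv⟩ : N) ^ p ^ k = 1 from Subtype.ext hvk, map_one, Units.val_one]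
  · rw [← Set.ncard_eq_toFinset_card _ (Set.finite_range _), ← Nat.card_coe_set_eq,
      ← conjOrbit, card_conjOrbit]
    exact fun h => hidx (h.trans (Subgroup.index_dvd_of_le (le_inertia (isClassFunction_coe θ))))

end CfsgLib.Chars.GaloisSum
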